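import Cfsg.Agent.S4926

/-!
# Four characters of height zero, odd primes
-/

set_option autoImplicit false
set_option linter.unusedSectionVars false

open Cfsg Cfsg.Agent.H3 Cfsg.Agent.H5 Cfsg.Agent.K0 Finset

namespace Cfsg.Agent.K0D

variable {p : ℕ} [hp : Fact p.Prime] {M : Ideal AlgInt} [PMod p M] {G : Type*} [Group G] [Finite G]

theorem exists_short4 (hp2 : p ≠ 2) {ι : Type*} [Fintype ι] [DecidableEq ι] (r : ι → ℤ) (o : ι)
    (ho : r o = 1)
    (hS4 : (univ.filter fun χ => ¬ (p : ℤ) ∣ r χ).card = 4) (h2 : (p : ℤ) ∣ ∑ χ, r χ ^ 2) :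
    ∃ (t : ℤ) (U : ι → ℤ), ¬ (p : ℤ) ∣ t ∧ (∀ χ, (p : ℤ) ∣ t * r χ - U χ) ∧
      ∑ χ, (2 * U χ - if χ = o then (p : ℤ) else 0) ^ 2 ≤ (p : ℤ) ^ 2 := by
  set S : Finset ι := univ.filter fun χ => ¬ (p : ℤ) ∣ r χ with hS
  have hp1 : (1 : ℤ) < p := by exact_mod_cast hp.out.one_lt
  have h1 : o ∈ S := by
    rw [hS, mem_filter, ho]
    exact ⟨mem_univ _, fun e => by have := Int.le_of_dvd one_pos e; omega⟩
  have hsum : (p : ℤ) ∣ ∑ χ ∈ S, r χ ^ 2 := by
    rw [← sum_filter_add_sum_filter_not univ fun χ => ¬ (p : ℤ) ∣ r χ] at h2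
    refine (dvd_add_left (dvd_sum fun χ hχ => ?_)).1 h2
    exact dvd_pow (not_not.1 (mem_filter.1 hχ).2) two_ne_zero
  have hT : (S.erase o).card = 3 := by rw [card_erase_of_mem h1, hS4]
  let e : Fin 3 ≃ (S.erase o) := (Finset.equivFinOfCardEq hT).symm
  have hsum' : ∀ f : ι → ℤ, ∑ χ ∈ S, f χ = f o + ∑ i, f (e i) := fun f => by
    rw [← add_sum_erase S f h1, ← sum_coe_sort (S.erase _), ← e.sum_comp]
  obtain ⟨t, u', ht0, htp, hu', hN'⟩ := quat p hp1
    (by exact_mod_cast hp.out.odd_of_ne_two hp2) (Fin.cons 0 fun i => r (e i)) (by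
      rw [hsum' fun χ => r χ ^ 2, ho, one_pow] at hsum
      simpa [Fin.sum_univ_succ] using hsum)
  let u : Fin 3 → ℤ := fun i => u' i.succ
  have hu : ∀ i, (p : ℤ) ∣ u i - t * r (e i) := fun i => hu' i.succ
  have hN : ∑ i, u i ^ 2 ≤ t * (p - t) := by
    rw [← hN', Fin.sum_univ_succ (n := 3)]
    exact le_add_of_nonneg_left (sq_nonneg _)
  let U : ι → ℤ := fun χ =>
    if χ = o then t else if hχ : χ ∈ S.erase o then u (e.symm ⟨χ, hχ⟩) else 0
  have hUe : ∀ i, U (e i) = u i := fun i => by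
    simp only [U, if_neg (ne_of_mem_erase (e i).2), dif_pos (e i).2, Subtype.coe_eta,
      Equiv.symm_apply_apply]
  have hU0 : ∀ χ, χ ∉ S → U χ = 0 ∧ χ ≠ o := fun χ hχ => by
    have h2 : χ ≠ o := fun e => hχ (e ▸ h1)
    exact ⟨by simp only [U, if_neg h2, dif_neg fun h3 => hχ (mem_of_mem_erase h3)], h2⟩
  have hUo : U o = t := if_pos rfl
  refine ⟨t, U, fun e => by have := Int.le_of_dvd ht0 e; omega, fun χ => ?_, ?_⟩
  · by_cases h2 : χ ∈ S
    · by_cases h3 : χ = o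
      · rw [h3, hUo, ho, mul_one, sub_self]
        exact dvd_zero _
      · obtain ⟨i, hi⟩ := e.surjective ⟨χ, mem_erase.2 ⟨h3, h2⟩⟩
        have : χ = e i := by rw [hi]
        rw [this, hUe, ← dvd_neg, neg_sub]
        exact hu i
    · rw [(hU0 χ h2).1, sub_zero]
      refine Dvd.dvd.mul_left ?_ _
      by_contra h3
      exact h2 (mem_filter.2 ⟨mem_univ _, h3⟩)
  · rw [← sum_subset (subset_univ S) fun χ _ hχ => by simp [(hU0 χ hχ).1, (hU0 χ hχ).2], hsum']
    have : ∀ i, (2 * U (e i) - if (e i : ι) = o then (p : ℤ) else 0) ^ 2 =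
        4 * u i ^ 2 := fun i => by
      rw [hUe, if_neg (ne_of_mem_erase (e i).2)]; ring
    simp only [this, ← mul_sum, hUo, if_true]
    nlinarith

theorem card_of_four (hp2 : p ≠ 2) (P : Sylow p G)
    (h : Nat.card {χ : IrrCharacter G // χ ∈ principalBlock M G ∧
      ¬ p ∣ charDegree (χ : G → ℂ)} = 4) : Nat.card P = p := by
  classical
  have hG := dvd_card_of_count (by norm_num) h
  obtain ⟨t, U, h1, h2, h3⟩ := exists_short4 (p := p) hp2 (rr M) (trivChar G) (rr_triv (p := p)) (by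
    rw [← h, Nat.card_eq_fintype_card, Fintype.card_subtype]
    congr 1
    ext χ
    simp only [mem_filter, mem_univ, true_and]
    exact dvd_rr_iff χ) (dvd_sum_rr_sq hG)
  exact card_eq_of_norm (M := M) hG P t h1 U h2 (by simpa only [Nat.cast_ite, Nat.cast_zero] using h3)

end Cfsg.Agent.K0D
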